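import Cfsg.Agent.H957.T5RowPSL
import Cfsg.Agent.H533.Wf.Kills
import Cfsg.Agent.H533.T5.Weak

/-!
# Two field automorphisms of order `p` of `PSL_2(F)`

* `conj_of_field` : two `σ`-semilinear maps of order `p` on a plane are conjugate under `SL(V)` up to scalars;
* `wpair_field` : the pairs of outer automorphisms of order `p` of `PSL_2(F)`.
-/

set_option autoImplicit false

namespace Cfsg.Agent.H322.Wf

open Module Subgroup Cfsg.Agent.H533.T5
open Cfsg.Agent.H957.T5V Cfsg.Agent.H957.T5Conf Cfsg.Agent.H957.T5Pairs Cfsg.Agent.H957.T5Main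
open Cfsg.Agent.H903.SylSemi (Ind scal scal_apply)

section geo

variable {F V : Type*} [Field F] [AddCommGroup V] [Module F V]

theorem semi_ext {σ : F ≃+* F} {y z : Equiv.Perm V} (hy : Semi σ y) (hz : Semi σ z) {n : ℕ} {b : Fin n → V}
    (hb : LinearIndependent F b) (hn : n = finrank F V) [FiniteDimensional F V] (h : ∀ i, y (b i) = z (b i)) :
    y = z := by
  have hspan : Submodule.span F (Set.range b) = ⊤ :=
    hb.span_eq_top_of_card_eq_finrank' (by rw [Fintype.card_fin, hn])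
  ext v
  have hv : v ∈ Submodule.span F (Set.range b) := by rw [hspan]; exact Submodule.mem_top
  induction hv using Submodule.span_induction with
  | mem x hx =>
    obtain ⟨i, rfl⟩ := hx
    exact h i
  | zero => rw [hy.zero, hz.zero]
  | add x y' _ _ hx hy' => rw [hy.add, hz.add, hx, hy']
  | smul a x _ hx => rw [hy.smul, hz.smul, hx]

theorem conj_of_field [Finite F] [FiniteDimensional F V] (hV : finrank F V = 2) {p : ℕ} (hp : p.Prime) (hp2 : p ≠ 2)
    {σ : F ≃+* F} (hσ : orderOf σ = p) {y z : Equiv.Perm V} (hy : Semi σ y) (hz : Semi σ z)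
    (hyp : y ^ p = 1) (hzp : z ^ p = 1) :
    ∃ g : V ≃ₗ[F] V, LinearEquiv.det g = 1 ∧ ∃ μ : Fˣ, toA g * z * (toA g)⁻¹ = smulA μ y := by
  obtain ⟨b, hb, hby⟩ := exists_fixed_basis (n := 2) hp.pos hy hσ hyp (by rw [hV])
  obtain ⟨b', hb', hbz⟩ := exists_fixed_basis (n := 2) hp.pos hz hσ hzp (by rw [hV])
  obtain ⟨g0, hg0⟩ := Cfsg.Agent.H105.exists_equiv_of_indep hb' hb
  obtain ⟨a, φ, ha, hφ, hσa, haφ⟩ := Cfsg.Agent.H957.T5Num.exists_fixed_mul_sq hp hp2 hσ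
    (μ := (LinearEquiv.det g0 : F)) (Units.ne_zero _)
  let a' : Fˣ := Units.mk0 a ha
  let φ' : Fˣ := Units.mk0 φ hφ
  obtain ⟨h1, hd1, h10, h11⟩ := Cfsg.Agent.H105.exists_scale hb 0 (φ'⁻¹ * a'⁻¹)
  obtain ⟨h2, hd2, h20, h21⟩ := Cfsg.Agent.H105.exists_scale hb 1 φ'⁻¹
  let σφ : Fˣ := Units.mk0 (σ φ) (by simpa using hφ)
  refine ⟨h1 * h2 * g0, ?_, σφ * φ'⁻¹, ?_⟩
  · rw [map_mul, map_mul, hd1, hd2]
    have h3 : a' * φ' ^ 2 = LinearEquiv.det g0 := Units.ext haφ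
    rw [← h3]
    have : φ'⁻¹ * a'⁻¹ * φ'⁻¹ * (a' * φ' ^ 2) = (φ'⁻¹ * φ') * (a'⁻¹ * a') * (φ'⁻¹ * φ') := by
      rw [pow_two]; simp only [mul_assoc, mul_comm, mul_left_comm]
    rw [this]
    simp
  · have e0 : (h1 * h2 * g0) (b' 0) = (φ⁻¹ * a⁻¹) • b 0 := by
      change h1 (h2 (g0 (b' 0))) = _
      rw [hg0, h21 0 (by decide), h10]
      simp [φ', a']
    have e1 : (h1 * h2 * g0) (b' 1) = φ⁻¹ • b 1 := by
      change h1 (h2 (g0 (b' 1))) = _
      rw [hg0, h20, map_smul, h11 1 (by decide)]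
      simp [φ']
    have hb2 : LinearIndependent F (fun i => (h1 * h2 * g0) (b' i)) :=
      hb'.map' _ (LinearEquiv.ker (h1 * h2 * g0))
    refine semi_ext (hz.conj _) (hy.smulA _) hb2 hV.symm fun i => ?_
    rw [Equiv.Perm.mul_apply, Equiv.Perm.mul_apply, toA_inv_apply, toA_apply, smulA_apply, hbz]
    have hσφ : σ φ ≠ 0 := by simpa using hφ
    have key : ((σφ * φ'⁻¹ : Fˣ) : F) = σ φ * φ⁻¹ := by
      simp [σφ, φ']
    rw [key]
    fin_cases i
    · change (h1 * h2 * g0) (b' 0) = (σ φ * φ⁻¹) • y ((h1 * h2 * g0) (b' 0))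
      rw [e0, hy.smul, hby, smul_smul, map_mul, map_inv₀, map_inv₀, hσa]
      congr 1
      field_simp
    · change (h1 * h2 * g0) (b' 1) = (σ φ * φ⁻¹) • y ((h1 * h2 * g0) (b' 1))
      rw [e1, hy.smul, hby, smul_smul, map_inv₀]
      congr 1
      field_simp

theorem sigma_pow_eq_one [Nontrivial V] {σ : F ≃+* F} {c : Equiv.Perm V} (hc : Semi σ c) {p : ℕ} {l : F}
    (hl : ∀ v, (c ^ p) v = l • v) : l ≠ 0 ∧ σ ^ p = 1 := by
  obtain ⟨v0, hv0⟩ := exists_ne (0 : V)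
  have hl0 : l ≠ 0 := by
    rintro rfl
    have h1 := hl v0
    rw [zero_smul] at h1
    exact hv0 ((c ^ p).injective (h1.trans (hc.pow p).zero.symm))
  refine ⟨hl0, ?_⟩
  ext a
  have h1 := (hc.pow p).smul a v0
  rw [hl, hl, smul_smul, smul_smul] at h1
  have h2 : (l * a - (σ ^ p) a * l) • v0 = 0 := by rw [sub_smul, h1, sub_self]
  rcases smul_eq_zero.1 h2 with h | h
  · have h3 : l * (a - (σ ^ p) a) = 0 := by linear_combination h
    have h4 := (mul_eq_zero.1 h3).resolve_left hl0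
    exact (sub_eq_zero.1 h4).symm
  · exact absurd h hv0

theorem exists_smulA_pow [Finite F] [Nontrivial V] {p : ℕ} (hp : p.Prime) {σ : F ≃+* F} {c : Equiv.Perm V}
    (hc : Semi σ c) (hσ : σ ≠ 1) (hcp : IsScal F (c ^ p)) :
    orderOf σ = p ∧ ∃ s : Fˣ, (smulA s c) ^ p = 1 := by
  have : Fact p.Prime := ⟨hp⟩
  obtain ⟨l, hl⟩ := hcp
  obtain ⟨hl0, hσp⟩ := sigma_pow_eq_one hc hl
  obtain ⟨v0, hv0⟩ := exists_ne (0 : V)
  have ho : orderOf σ = p := orderOf_eq_prime hσp hσ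
  obtain ⟨s, hs⟩ := Cfsg.Agent.CpAut.Descent.exists_scale (g := c) (σ := σ) ⟨hc.add, hc.smul⟩ ho
    hp.pos hl0 hl ⟨v0, hv0⟩
  refine ⟨ho, s, ?_⟩
  have h1 : smulA s c = Cfsg.Agent.CpAut.Descent.scal V s * c := by
    ext v
    rw [smulA_apply, Equiv.Perm.mul_apply, Cfsg.Agent.CpAut.Descent.scal_apply]
  rw [h1, hs]

end geo

section psl

open Matrix
open Cfsg.Agent.H957.T5Tr
open Cfsg.Agent.H199.PslAut
open Cfsg.Agent.ClassicalGeometry.AutPSL.Root
open Cfsg.Agent.ClassicalGeometry.AutPSL.Auto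
open Cfsg.Agent.H897.MeetPSL

variable {F : Type} [Field F] [Fintype F]

theorem semi_rho {n : ℕ} (s : Matrix.SpecialLinearGroup (Fin n) F) : Semi (1 : F ≃+* F) (rho n F s) := by
  refine ⟨fun u v => ?_, fun b v => ?_⟩
  · rw [rho_apply, rho_apply, rho_apply, mulVec_add]
  · rw [rho_apply, rho_apply, mulVec_smul]
    rfl

/-- Semilinear maps inducing the identity are scalars. -/
theorem isScal_of_ind {n : ℕ} (hn : 2 ≤ n) {θ : F ≃+* F} {y : Equiv.Perm (Fin n → F)} (hθ : Semi θ y)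
    (hy : Ind (pr : Matrix.SpecialLinearGroup (Fin n) F →* _) (rho n F) y 1) :
    ∃ u : Fˣ, y = scal F (Fin n → F) u := by
  obtain ⟨A, rfl⟩ := exists_smap (show Cfsg.Agent.H903.SylSemi.Semi F y θ from ⟨hθ.add, hθ.smul⟩)
  have h1 : Psi n F A * phi n F θ = 1 :=
    Ind.unique pr_surjective rho_injective (ind_smap A θ) hy
  obtain ⟨⟨u, rfl⟩, h2⟩ := Psi_phi_eq hn (g := A) (σ := θ) (τ := 1) (by rw [h1, map_one])
  refine ⟨u, ?_⟩
  ext v : 1
  rw [smap_apply, h2, scal_apply, Cfsg.Agent.H199.PslAut.coe_scal]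
  change (scalar (Fin n) (u : F)) *ᵥ v = (u : F) • v
  rw [Matrix.scalar_apply, Matrix.diagonal_const_mulVec]

theorem ind_smulA {n : ℕ} (s : Fˣ) {y : Equiv.Perm (Fin n → F)}
    {c : MulAut (Matrix.ProjectiveSpecialLinearGroup (Fin n) F)}
    (hy : Ind (pr : Matrix.SpecialLinearGroup (Fin n) F →* _) (rho n F) y c) :
    Ind (pr : Matrix.SpecialLinearGroup (Fin n) F →* _) (rho n F) (smulA s y) c := by
  have h1 := (ind_scal (F := F) (V := Fin n → F) (π := (pr : Matrix.SpecialLinearGroup (Fin n) F →* _))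
    (ρ := rho n F) semi_rho s).mul hy
  rw [one_mul] at h1
  exact h1

theorem ind_conj_lin {g : (Fin 2 → F) ≃ₗ[F] (Fin 2 → F)} (hg : LinearEquiv.det g = 1) :
    ∃ s : Matrix.SpecialLinearGroup (Fin 2) F, rho 2 F s = toA g := by
  have hd : (LinearMap.toMatrix' (g : (Fin 2 → F) →ₗ[F] (Fin 2 → F))).det = 1 := by
    rw [LinearMap.det_toMatrix', ← LinearEquiv.coe_det, hg, Units.val_one]
  refine ⟨⟨LinearMap.toMatrix' (g : (Fin 2 → F) →ₗ[F] (Fin 2 → F)), hd⟩, ?_⟩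
  ext v : 1
  refine (rho_apply _ v).trans ?_
  change (LinearMap.toMatrix' (g : (Fin 2 → F) →ₗ[F] (Fin 2 → F))) *ᵥ v = g v
  rw [LinearMap.toMatrix'_mulVec]
  rfl

/-- Two outer automorphisms of order `p` of `PSL_2(F)`. -/
theorem wpair_field {p : ℕ} [hp : Fact p.Prime] (hp2 : p ≠ 2)
    (hS : IsSimpleGroup (Matrix.ProjectiveSpecialLinearGroup (Fin 2) F))
    (hna : ¬ IsMulCommutative (Matrix.ProjectiveSpecialLinearGroup (Fin 2) F))
    {c d : MulAut (Matrix.ProjectiveSpecialLinearGroup (Fin 2) F)} (hc : orderOf c = p) (hd : orderOf d = p)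
    {g g' : GL (Fin 2) F} {σ τ : F ≃+* F} (hcσ : c = Psi 2 F g * phi 2 F σ) (hdτ : d = Psi 2 F g' * phi 2 F τ)
    (hσ : σ ≠ 1) (hτ : τ ≠ 1) :
    WPair p (MulAut.conj : Matrix.ProjectiveSpecialLinearGroup (Fin 2) F →* _).range c d := by
  have hVn : Nontrivial (Fin 2 → F) := Function.nontrivial
  -- the lifts
  have lift : ∀ (c : MulAut (Matrix.ProjectiveSpecialLinearGroup (Fin 2) F)), orderOf c = p →
      ∀ (g : GL (Fin 2) F) (σ : F ≃+* F), c = Psi 2 F g * phi 2 F σ → σ ≠ 1 →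
      orderOf σ = p ∧ ∃ y : Equiv.Perm (Fin 2 → F), Semi σ y ∧ y ^ p = 1 ∧
        Ind (pr : Matrix.SpecialLinearGroup (Fin 2) F →* _) (rho 2 F) y c := by
    intro c hc g σ hcσ hσ
    have hy : Ind (pr : Matrix.SpecialLinearGroup (Fin 2) F →* _) (rho 2 F) (smap g σ) c := by
      rw [hcσ]; exact ind_smap g σ
    have hys : Semi σ (smap g σ) := ⟨(semi_smap g σ).1, (semi_smap g σ).2⟩
    have h1 := hy.pow p
    rw [← hc, pow_orderOf_eq_one, hc] at h1
    obtain ⟨u, hu⟩ := isScal_of_ind le_rfl (hys.pow p) h1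
    obtain ⟨ho, s, hs⟩ := exists_smulA_pow hp.out hys hσ (by rw [hu]; exact isScal_scal u)
    exact ⟨ho, smulA s (smap g σ), hys.smulA s, hs, ind_smulA s hy⟩
  obtain ⟨hoσ, y, hys, hyp, hyc⟩ := lift c hc g σ hcσ hσ
  obtain ⟨hoτ, z, hzs, hzp, hzd⟩ := lift d hd g' τ hdτ hτ
  obtain ⟨j, hj⟩ := exists_pow_inv (σ := σ⁻¹) (τ := τ) hp.out (by rw [orderOf_inv, hoσ]) hoτ
  rw [inv_inv] at hj
  have hzj : Semi σ (z ^ j) := by rw [← hj]; exact hzs.pow j
  have hzjp : (z ^ j) ^ p = 1 := by rw [← pow_mul, mul_comm, pow_mul, hzp, one_pow]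
  obtain ⟨G, hG, μ, hμ⟩ := conj_of_field (V := Fin 2 → F)
    (by rw [Module.finrank_fintype_fun_eq_card, Fintype.card_fin]) hp.out hp2 hoσ hys hzj hyp hzjp
  obtain ⟨s, hs⟩ := ind_conj_lin hG
  have h1 : Ind (pr : Matrix.SpecialLinearGroup (Fin 2) F →* _) (rho 2 F) (smulA μ y)
      (MulAut.conj (pr s) * d ^ j * (MulAut.conj (pr s))⁻¹) := by
    rw [← hμ, ← hs]
    exact ((Ind.conj pr (rho 2 F) s).mul (hzd.pow j)).mul (Ind.conj pr (rho 2 F) s).inv
  have h2 : MulAut.conj (pr s) * d ^ j * (MulAut.conj (pr s))⁻¹ = c :=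
    Ind.unique pr_surjective rho_injective h1 (ind_smulA μ hyc)
  have hcen := center_eq_bot_of_simple hna
  have hn := conj_range_normal (S := Matrix.ProjectiveSpecialLinearGroup (Fin 2) F)
  refine wpair_of_isConj_pow _ (conj_range_simple hna) ?_ (centralizer_conj_range hcen)
    (s := MulAut.conj (pr s)) ⟨pr s, rfl⟩ (i := 1) (j := j) (by rw [pow_one]; exact h2) ?_
  · intro hP
    have e := MonoidHom.ofInjective (conj_injective_of_simple hna)
    have hP' : IsPGroup p (Matrix.ProjectiveSpecialLinearGroup (Fin 2) F) := hP.of_equiv e.symm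
    have : Nontrivial (Matrix.ProjectiveSpecialLinearGroup (Fin 2) F) := hS.toNontrivial
    have h4 : Nontrivial (Subgroup.center (Matrix.ProjectiveSpecialLinearGroup (Fin 2) F)) :=
      hP'.center_nontrivial
    rw [hcen] at h4
    exact (not_subsingleton_iff_nontrivial.mpr h4) inferInstance
  · rw [pow_one]
    rintro rfl
    rw [orderOf_one] at hc
    exact hp.out.one_lt.ne hc

end psl

end Cfsg.Agent.H322.Wf
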