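import Cfsg.Agent.H322.Wf.PslAbs
import Cfsg.Agent.H322.Wf.PslField
import Cfsg.Agent.H164.RowCongr
import Cfsg.Agent.H432.PG.Aut
import Cfsg.Agent.Lib.PSL2Mult
import Cfsg.Agent.Lib.AutSL2
import Cfsg.Agent.ClassicalGeometry.PSL2Basic
import Cfsg.Agent.StdL2.Cover

/-!
# S3826: the row `PSL_2(F)`

* `wrow_psl2` : for an odd prime `p` two automorphisms of order `p` of the simple group `PSL_2(F)` never
  generate only `p`-groups with conjugates of each other;
* `wf_psl2` : the row of S3826.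
-/

set_option autoImplicit false

namespace Cfsg.Agent.H322.Wf

open Matrix Subgroup Cfsg.Agent.H533.T5
open Cfsg.Agent.H199.PslAut
open Cfsg.Agent.ClassicalGeometry.AutPSL.Root
open Cfsg.Agent.ClassicalGeometry.AutPSL.Auto
open Cfsg.Agent.H897.MeetPSL
open Cfsg.Agent.Lib.SL2Mat

universe u v

section ti

variable {F : Type*} [Field F] [Fintype F]

theorem pr_eq_iff {a b : Matrix.SpecialLinearGroup (Fin 2) F} (h : (pr a : Matrix.ProjectiveSpecialLinearGroup (Fin 2) F) = pr b) :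
    b = a ∨ b = -a := by
  have h1 : a⁻¹ * b ∈ Subgroup.center (Matrix.SpecialLinearGroup (Fin 2) F) := QuotientGroup.eq.1 h
  rcases Cfsg.Agent.ClassicalGeometry.PSL2Basic.mem_center_SL2_iff.1 h1 with h2 | h2
  · left
    rw [inv_mul_eq_one] at h2
    exact h2.symm
  · right
    rw [inv_mul_eq_iff_eq_mul] at h2
    rw [h2, mul_neg, mul_one]

theorem psl_ti {p : ℕ} [hp : Fact p.Prime] [CharP F p] (hp2 : p ≠ 2)
    (P Q : Sylow p (Matrix.ProjectiveSpecialLinearGroup (Fin 2) F))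
    (y : Matrix.ProjectiveSpecialLinearGroup (Fin 2) F) (hyP : y ∈ P) (hyQ : y ∈ Q) (hy : y ≠ 1) : P = Q := by
  have h2 : (2 : F) ≠ 0 := by
    intro h
    have h1 : ((2 : ℕ) : F) = 0 := by exact_mod_cast h
    rw [CharP.cast_eq_zero_iff F p] at h1
    exact hp2 ((Nat.prime_dvd_prime_iff_eq hp.out Nat.prime_two).1 h1)
  let U : Sylow p (Matrix.ProjectiveSpecialLinearGroup (Fin 2) F) :=
    (Cfsg.Agent.Lib.AutSL2.sylU F p).mapSurjective (f := (pr : Matrix.SpecialLinearGroup (Fin 2) F →* _)) pr_surjective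
  have hUmem : ∀ x, x ∈ U ↔ ∃ c : F, pr (up c) = x := by
    intro x
    constructor
    · rintro ⟨z, ⟨c, rfl⟩, hz⟩
      exact ⟨c, hz⟩
    · rintro ⟨c, rfl⟩
      exact ⟨up c, ⟨c, rfl⟩, rfl⟩
  obtain ⟨g, rfl⟩ := MulAction.exists_smul_eq (Matrix.ProjectiveSpecialLinearGroup (Fin 2) F) U P
  obtain ⟨h, rfl⟩ := MulAction.exists_smul_eq (Matrix.ProjectiveSpecialLinearGroup (Fin 2) F) U Q
  rw [Cfsg.Agent.Lib.AutSL2.mem_smul_sylow, hUmem] at hyP hyQ
  obtain ⟨b, hb⟩ := hyP
  obtain ⟨b', hb'⟩ := hyQ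
  obtain ⟨κ, hκ⟩ := pr_surjective (g⁻¹ * h)
  have hb0 : b ≠ 0 := by
    rintro rfl
    rw [up_zero, map_one] at hb
    apply hy
    calc y = g * (g⁻¹ * y * g) * g⁻¹ := by group
      _ = 1 := by rw [← hb]; group
  have h3 : (pr (up b * κ) : Matrix.ProjectiveSpecialLinearGroup (Fin 2) F) = pr (κ * up b') := by
    rw [map_mul, map_mul, hκ, hb, hb']
    group
  have h10 : ent κ 1 0 = 0 := by
    rcases pr_eq_iff h3 with h4 | h4
    · have h5 := congrArg (fun z => ent z 0 0) h4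
      simp only [ent_mul, up_00, up_10, up_01, up_11] at h5
      have h6 : b * ent κ 1 0 = 0 := by linear_combination -h5
      exact (mul_eq_zero.1 h6).resolve_left hb0
    · have h5 := congrArg (fun z => ent z 1 0) h4
      have h5' : ent (κ * up b') 1 0 = - ent (up b * κ) 1 0 := h5
      simp only [ent_mul, up_00, up_10, up_01, up_11] at h5'
      have h6 : 2 * ent κ 1 0 = 0 := by linear_combination h5'
      exact (mul_eq_zero.1 h6).resolve_left h2
  have hdet := det_eq κ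
  rw [h10, mul_zero, sub_zero] at hdet
  refine (Cfsg.Agent.Lib.AutSL2.sylow_eq_of_le fun z hz => ?_)
  rw [Cfsg.Agent.Lib.AutSL2.mem_smul_sylow, hUmem] at hz ⊢
  obtain ⟨t, ht⟩ := hz
  refine ⟨t * ent κ 0 0 ^ 2, ?_⟩
  have h4 : up (t * ent κ 0 0 ^ 2) * κ = κ * up t := by
    refine ext_ent ?_ ?_ ?_ ?_ <;> simp only [ent_mul, up_00, up_10, up_01, up_11, h10]
    · ring
    · linear_combination t * ent κ 0 0 * hdet
    · ring
    · ring
  have h5 := congrArg (pr : Matrix.SpecialLinearGroup (Fin 2) F → Matrix.ProjectiveSpecialLinearGroup (Fin 2) F) h4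
  rw [map_mul, map_mul, hκ, ht] at h5
  calc pr (up (t * ent κ 0 0 ^ 2)) = (pr (up (t * ent κ 0 0 ^ 2)) * (g⁻¹ * h)) * (g⁻¹ * h)⁻¹ := by group
    _ = g⁻¹ * z * g := by rw [h5]; group

end ti

section row

variable {F : Type} [Field F] [Fintype F]

/-- An automorphism of odd order induced by `GL_2(F)` is inner. -/
theorem inner_of_psi {p : ℕ} (hodd : Odd p) {g : GL (Fin 2) F} (h : Psi 2 F g ^ p = 1) :
    ∃ x, Psi 2 F g = MulAut.conj x := by
  obtain ⟨s, hs⟩ := Cfsg.Agent.H432.PG.Aut.psi_conj_of_sq (g := g * g) (c := Matrix.GeneralLinearGroup.det g)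
    (by rw [map_mul, pow_two])
  obtain ⟨m, hm⟩ := hodd
  refine ⟨(pr s) ^ (m + 1), ?_⟩
  rw [map_pow, ← hs, map_mul, ← pow_two, ← pow_mul]
  have : 2 * (m + 1) = p + 1 := by omega
  rw [this, pow_succ, h, one_mul]

theorem wpair_inner {p : ℕ} [hp : Fact p.Prime] (hp2 : p ≠ 2)
    (hS : IsSimpleGroup (Matrix.ProjectiveSpecialLinearGroup (Fin 2) F))
    (hna : ¬ IsMulCommutative (Matrix.ProjectiveSpecialLinearGroup (Fin 2) F))
    {c d : MulAut (Matrix.ProjectiveSpecialLinearGroup (Fin 2) F)} (hc : orderOf c = p) (hd : orderOf d = p)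
    {g : GL (Fin 2) F} (hcg : c = Psi 2 F g) :
    WPair p (MulAut.conj : Matrix.ProjectiveSpecialLinearGroup (Fin 2) F →* _).range c d := by
  obtain ⟨x, hx⟩ := inner_of_psi (F := F) (hp.out.odd_of_ne_two hp2) (g := g)
    (by rw [← hcg, ← hc, pow_orderOf_eq_one])
  rw [hcg, hx] at hc ⊢
  have hxo : orderOf x = p := by
    rw [← hc]
    exact (orderOf_injective (MulAut.conj : Matrix.ProjectiveSpecialLinearGroup (Fin 2) F →* _)
      (conj_injective_of_simple hna) x).symm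
  have hcen := center_eq_bot_of_simple hna
  obtain ⟨r, hr⟩ := CharP.exists F
  have hrp : r.Prime := CharP.char_is_prime F r
  by_cases hrp' : r = p
  · subst hrp'
    exact wpair_ti hcen (psl_ti hp2) hxo hd
  · have hpF : ¬ p ∣ Fintype.card F := by
      obtain ⟨n, -, hn⟩ := FiniteField.card F r
      rw [hn]
      intro h
      exact hrp' ((Nat.prime_dvd_prime_iff_eq hp.out hrp).1 (hp.out.dvd_of_dvd_pow h)).symm
    by_cases hr2 : r = 2
    · subst hr2
      obtain ⟨n, -, hn⟩ := FiniteField.card F 2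
      exact wpair_cyclic hcen (fun P => Cfsg.Agent.StdL2.Cover.isCyclic_sylow_even n.pos hn hp2 P) hxo hd
    · have hodd : Odd (Fintype.card F) := by
        obtain ⟨n, -, hn⟩ := FiniteField.card F r
        rw [hn]
        exact (hrp.odd_of_ne_two hr2).pow
      exact wpair_cyclic hcen (fun P => Cfsg.Agent.Lib.PSL2Mult.isCyclic_sylow_psl hodd hp2 hpF P) hxo hd

/-- **All pairs of automorphisms of odd prime order of `PSL_2(F)`.** -/
theorem wrow_psl2 {p : ℕ} [hp : Fact p.Prime] (hp2 : p ≠ 2)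
    (hS : IsSimpleGroup (Matrix.ProjectiveSpecialLinearGroup (Fin 2) F))
    (hna : ¬ IsMulCommutative (Matrix.ProjectiveSpecialLinearGroup (Fin 2) F)) :
    WRow p (Matrix.ProjectiveSpecialLinearGroup (Fin 2) F) := by
  intro c d hc hd
  have form : ∀ β : MulAut (Matrix.ProjectiveSpecialLinearGroup (Fin 2) F), orderOf β = p →
      ∃ (g : GL (Fin 2) F) (σ : F ≃+* F), β = Psi 2 F g * phi 2 F σ := by
    intro β hβ
    have hP : IsPGroup p ↥(Subgroup.zpowers β) :=
      IsPGroup.of_card (n := 1) (by rw [Nat.card_zpowers, hβ, pow_one])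
    exact form_of_pgroup le_rfl hp2 hP (Subgroup.mem_zpowers β)
  obtain ⟨g, σ, hcσ⟩ := form c hc
  obtain ⟨g', τ, hdτ⟩ := form d hd
  by_cases hσ : σ = 1
  · refine wpair_inner hp2 hS hna hc hd (g := g) ?_
    rw [hcσ, hσ, map_one, mul_one]
  by_cases hτ : τ = 1
  · refine (wpair_inner hp2 hS hna hd hc (g := g') ?_).symm
    rw [hdτ, hτ, map_one, mul_one]
  exact wpair_field hp2 hS hna hc hd hcσ hdτ hσ hτ

end row

/-- **The row of S3826 for `PSL_2(F)`** (any odd prime). -/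
theorem wf_psl2' {p : ℕ} [Fact p.Prime] (hp2 : p ≠ 2) {K : Type v} [Group K] [Finite K] [IsSimpleGroup K]
    {F : Type} [Field F] [Fintype F]
    (e : Nonempty (K ≃* Matrix.ProjectiveSpecialLinearGroup (Fin 2) F)) :
    Cfsg.Agent.H533.Wf.WfRow.{u, v} p K := by
  obtain ⟨e⟩ := e
  by_cases hna : IsMulCommutative (Matrix.ProjectiveSpecialLinearGroup (Fin 2) F)
  · rintro G _ _ S C D h ⟨f⟩
    apply h.nc
    refine ⟨⟨fun a b => ?_⟩⟩
    apply (f.trans e).injective
    rw [map_mul, map_mul]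
    exact hna.is_comm.comm _ _
  · have hS : IsSimpleGroup (Matrix.ProjectiveSpecialLinearGroup (Fin 2) F) := e.symm.isSimpleGroup
    exact Cfsg.Agent.H533.Wf.WfRow.of_wrow
      (Cfsg.Agent.H164.RowCongr.wrow_congr e.symm (wrow_psl2 hp2 hS hna))

/-- **The row of S3826 for `PSL_2(F)`.** -/
theorem wf_psl2 {K : Type v} [Group K] [Finite K] [IsSimpleGroup K] {F : Type} [Field F] [Fintype F]
    (e : Nonempty (K ≃* Matrix.ProjectiveSpecialLinearGroup (Fin 2) F)) :
    Cfsg.Agent.H533.Wf.WfRow.{u, v} 3 K :=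
  have : Fact (Nat.Prime 3) := ⟨Nat.prime_three⟩
  wf_psl2' (by decide) e

end Cfsg.Agent.H322.Wf
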