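import Cfsg.Agent.H533.T5.Defs
import Mathlib

/-!
# Pairs of automorphisms of order `p`, one of them inner

* `wpair_cyclic` : the Sylow `p`-subgroups of the simple group `S` are cyclic, `c` is inner;
* `wpair_ti` : the Sylow `p`-subgroups of the simple group `S` intersect trivially, `c` is inner.
-/

set_option autoImplicit false

namespace Cfsg.Agent.H322.Wf

open Subgroup Cfsg.Agent.H533.T5

variable {S : Type*} [Group S] [Finite S] {p : ℕ}

omit [Finite S] in
/-- The elements of order `p` of a cyclic group. -/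
theorem mem_zpowers_of_cyclic [hp : Fact p.Prime] {Q : Subgroup S} [Finite Q] (hQ : IsCyclic Q) {x y : S}
    (hx : x ∈ Q) (hy : y ∈ Q) (hxo : orderOf x = p) (hyp : y ^ p = 1) : y ∈ Subgroup.zpowers x := by
  classical
  have : Fintype Q := Fintype.ofFinite _
  have h1 := IsCyclic.card_pow_eq_one_le (α := Q) hp.out.pos
  set x' : Q := ⟨x, hx⟩ with hx'
  have hxo' : orderOf x' = p := by rw [hx', Subgroup.orderOf_mk, hxo]
  set A : Finset Q := Finset.univ.filter fun a => a ^ p = 1 with hA
  have h2 : (Subgroup.zpowers x' : Set Q) ⊆ A := by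
    intro z hz
    rw [hA, Finset.coe_filter]
    refine ⟨Finset.mem_univ _, ?_⟩
    obtain ⟨k, rfl⟩ := hz
    change (x' ^ k) ^ p = 1
    rw [← zpow_natCast, zpow_comm, zpow_natCast, ← hxo', pow_orderOf_eq_one, one_zpow]
  have h3 : (Subgroup.zpowers x' : Set Q) = A := by
    refine Set.eq_of_subset_of_ncard_le h2 ?_ (Set.toFinite _)
    rw [Set.ncard_coe_finset]
    have h4 : (Subgroup.zpowers x' : Set Q).ncard = p := by
      rw [← hxo', ← Nat.card_zpowers]
      rfl
    rw [h4]
    exact h1
  have h5 : (⟨y, hy⟩ : Q) ∈ (A : Set Q) := by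
    rw [hA, Finset.coe_filter]
    exact ⟨Finset.mem_univ _, Subtype.ext hyp⟩
  rw [← h3] at h5
  obtain ⟨k, hk⟩ := h5
  exact ⟨k, congrArg Subtype.val hk⟩

/-- An automorphism `d` of order `p` with `d x` a power of `x` of order `p` fixes `x`. -/
theorem fixes_of_mem_zpowers [hp : Fact p.Prime] {d : MulAut S} (hd : d ^ p = 1) {x : S} (hx : orderOf x = p)
    (h : d x ∈ Subgroup.zpowers x) : d x = x := by
  obtain ⟨r, hr⟩ := mem_powers_iff_mem_zpowers.2 h
  have hr' : d x = x ^ r := hr.symm
  have h2 : ∀ m : ℕ, (d ^ m) x = x ^ r ^ m := by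
    intro m
    induction m with
    | zero => simp
    | succ m ih =>
      rw [pow_succ']
      change d ((d ^ m) x) = _
      rw [ih, map_pow, hr', ← pow_mul, pow_succ']
  have h3 := h2 p
  rw [hd, MulAut.one_apply] at h3
  have h4 : x ^ r ^ p = x ^ r := by
    have h5 : r ^ p ≡ r [MOD p] := by
      have := ZMod.pow_card (r : ZMod p)
      rw [← ZMod.natCast_eq_natCast_iff]
      push_cast
      exact this
    rw [← pow_mod_orderOf x (r ^ p), hx, h5, ← hx, pow_mod_orderOf]
  rw [hr', ← h4, ← h3]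

/-- The subgroup of `S` of the inner automorphisms in `P`. -/
theorem isPGroup_comap_conj (hc : Subgroup.center S = ⊥) {P : Subgroup (MulAut S)} (hP : IsPGroup p P) :
    IsPGroup p (P.comap (MulAut.conj : S →* MulAut S)) := by
  have hinj : Function.Injective (MulAut.conj : S →* MulAut S) := by
    rw [← MonoidHom.ker_eq_bot_iff, eq_bot_iff]
    intro s hs
    rw [← hc, Subgroup.mem_center_iff]
    intro g
    have h1 : (MulAut.conj s) g = g := by
      rw [MonoidHom.mem_ker.1 hs]; rfl
    rw [MulAut.conj_apply] at h1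
    calc g * s = s * g * s⁻¹ * s := by rw [h1]
      _ = s * g := by group
  intro q
  obtain ⟨k, hk⟩ := hP ⟨MulAut.conj (q : S), q.2⟩
  refine ⟨k, Subtype.ext (hinj ?_)⟩
  rw [Subgroup.coe_pow, map_pow]
  simpa using congrArg Subtype.val hk

theorem map_mem_comap {P : Subgroup (MulAut S)} {d : MulAut S} (hd : d ∈ P) {s : S}
    (hs : MulAut.conj s ∈ P) : MulAut.conj (d s) ∈ P := by
  have h1 : MulAut.conj (d s) = d * MulAut.conj s * d⁻¹ := by
    ext x
    rw [MulAut.mul_apply, MulAut.mul_apply, MulAut.conj_apply, MulAut.conj_apply, map_mul, map_mul,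
      map_inv, MulAut.apply_inv_self]
  rw [h1]
  exact mul_mem (mul_mem hd hs) (inv_mem hd)

theorem conj_apply_eq {g : S} {d : MulAut S} {x : S} :
    (MulAut.conj g * d * (MulAut.conj g)⁻¹) x = g * d (g⁻¹ * x * g) * g⁻¹ := by
  rw [MulAut.mul_apply, MulAut.mul_apply, MulAut.conj_inv_apply, MulAut.conj_apply]

/-- **Cyclic Sylow subgroups**: an inner automorphism and any automorphism. -/
theorem wpair_cyclic [hp : Fact p.Prime] [hS : IsSimpleGroup S] (hc : Subgroup.center S = ⊥)
    (hcyc : ∀ P : Sylow p S, IsCyclic P) {x : S} (hx : orderOf x = p) {d : MulAut S}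
    (hd : orderOf d = p) : WPair p (MulAut.conj : S →* MulAut S).range (MulAut.conj x) d := by
  by_contra hcon
  have hall : ∀ g : S, IsPGroup p ↥(Subgroup.closure
      ({MulAut.conj x, MulAut.conj g * d * (MulAut.conj g)⁻¹} : Set (MulAut S))) := by
    intro g
    by_contra h
    exact hcon ⟨MulAut.conj g, ⟨g, rfl⟩, h⟩
  have hx1 : x ≠ 1 := by
    rintro rfl
    rw [orderOf_one] at hx
    exact hp.out.one_lt.ne hx
  have hfix : ∀ g : S, d (g⁻¹ * x * g) = g⁻¹ * x * g := by
    intro g
    set d' := MulAut.conj g * d * (MulAut.conj g)⁻¹ with hd'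
    set P := Subgroup.closure ({MulAut.conj x, d'} : Set (MulAut S)) with hPdef
    have hP : IsPGroup p P := hall g
    have hQ := isPGroup_comap_conj hc hP
    have hxQ : x ∈ P.comap (MulAut.conj : S →* MulAut S) :=
      Subgroup.subset_closure (by simp)
    have hdP : d' ∈ P := Subgroup.subset_closure (by simp)
    have hdxQ : d' x ∈ P.comap (MulAut.conj : S →* MulAut S) := map_mem_comap hdP hxQ
    obtain ⟨U, hU⟩ := hQ.exists_le_sylow
    have hdp : d' ^ p = 1 := by
      rw [hd', conj_pow, ← hd, pow_orderOf_eq_one, mul_one, mul_inv_cancel]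
    have h1 : d' x ∈ Subgroup.zpowers x :=
      mem_zpowers_of_cyclic (hcyc U) (hU hxQ) (hU hdxQ) hx (by
        rw [← map_pow, ← hx, pow_orderOf_eq_one, map_one])
    have h2 := fixes_of_mem_zpowers hdp hx h1
    rw [hd', conj_apply_eq] at h2
    calc d (g⁻¹ * x * g) = g⁻¹ * (g * d (g⁻¹ * x * g) * g⁻¹) * g := by group
      _ = g⁻¹ * x * g := by rw [h2]
  have hle : Subgroup.normalClosure ({x} : Set S) ≤ MonoidHom.eqLocus (d : S ≃* S).toMonoidHom (MonoidHom.id S) := by
    rw [Subgroup.normalClosure, Subgroup.closure_le]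
    intro y hy
    rw [Group.mem_conjugatesOfSet_iff] at hy
    obtain ⟨a, ha, hay⟩ := hy
    rw [Set.mem_singleton_iff] at ha
    subst ha
    obtain ⟨g, hg⟩ := isConj_iff.1 hay
    have h1 := hfix g⁻¹
    rw [inv_inv, hg] at h1
    exact h1
  have htop : Subgroup.normalClosure ({x} : Set S) = ⊤ := by
    rcases hS.eq_bot_or_eq_top_of_normal _ (Subgroup.normalClosure_normal (s := ({x} : Set S))) with h | h
    · exfalso
      apply hx1
      have h1 : x ∈ Subgroup.normalClosure ({x} : Set S) := Subgroup.subset_normalClosure rfl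
      rwa [h, Subgroup.mem_bot] at h1
    · exact h
  have hd1 : d = 1 := by
    ext s
    have h1 : s ∈ Subgroup.normalClosure ({x} : Set S) := by rw [htop]; exact Subgroup.mem_top s
    exact hle h1
  rw [hd1, orderOf_one] at hd
  exact hp.out.one_lt.ne hd

/-- **TI Sylow subgroups**: an inner automorphism and any automorphism. -/
theorem wpair_ti [hp : Fact p.Prime] [hS : IsSimpleGroup S] (hc : Subgroup.center S = ⊥)
    (hti : ∀ P Q : Sylow p S, ∀ y : S, y ∈ P → y ∈ Q → y ≠ 1 → P = Q) {x : S} (hx : orderOf x = p)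
    {d : MulAut S} (hd : orderOf d = p) :
    WPair p (MulAut.conj : S →* MulAut S).range (MulAut.conj x) d := by
  by_contra hcon
  have hall : ∀ g : S, IsPGroup p ↥(Subgroup.closure
      ({MulAut.conj x, MulAut.conj g * d * (MulAut.conj g)⁻¹} : Set (MulAut S))) := by
    intro g
    by_contra h
    exact hcon ⟨MulAut.conj g, ⟨g, rfl⟩, h⟩
  have hx1 : x ≠ 1 := by
    rintro rfl
    rw [orderOf_one] at hx
    exact hp.out.one_lt.ne hx
  obtain ⟨U, hxU⟩ : ∃ U : Sylow p S, x ∈ U := by
    have h1 : IsPGroup p (Subgroup.zpowers x) :=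
      IsPGroup.of_card (n := 1) (by rw [Nat.card_zpowers, hx, pow_one])
    obtain ⟨U, hU⟩ := h1.exists_le_sylow
    exact ⟨U, hU (Subgroup.mem_zpowers x)⟩
  -- `d` leaves the conjugates of `U` invariant
  have hinv : ∀ g : S, (∀ u ∈ U, g * d (g⁻¹ * u * g) * g⁻¹ ∈ U) ∧
      ∀ u ∈ U, ∃ u' ∈ U, g * d (g⁻¹ * u' * g) * g⁻¹ = u := by
    intro g
    set d' := MulAut.conj g * d * (MulAut.conj g)⁻¹ with hd'
    set P := Subgroup.closure ({MulAut.conj x, d'} : Set (MulAut S)) with hPdef
    have hP : IsPGroup p P := hall g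
    have hQ := isPGroup_comap_conj hc hP
    have hxQ : x ∈ P.comap (MulAut.conj : S →* MulAut S) :=
      Subgroup.subset_closure (by simp)
    have hdP : d' ∈ P := Subgroup.subset_closure (by simp)
    have hdxQ : d' x ∈ P.comap (MulAut.conj : S →* MulAut S) := map_mem_comap hdP hxQ
    obtain ⟨V, hV⟩ := hQ.exists_le_sylow
    have hVU : V = U := hti V U x (hV hxQ) hxU hx1
    subst hVU
    -- the image of `V`
    have hcard : Nat.card ((V : Subgroup S).map (d' : S ≃* S).toMonoidHom) = p ^ (Nat.card S).factorization p := by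
      rw [Subgroup.card_map_of_injective (d' : S ≃* S).injective]
      exact V.card_eq_multiplicity
    let W : Sylow p S := Sylow.ofCard _ hcard
    have hW : W = V := by
      refine hti W V (d' x) ?_ (hV hdxQ) ?_
      · show d' x ∈ (V : Subgroup S).map (d' : S ≃* S).toMonoidHom
        exact ⟨x, hxU, rfl⟩
      · intro h0
        exact hx1 ((MulEquiv.map_eq_one_iff d').1 h0)
    constructor
    · intro u hu
      have h1 : d' u ∈ W := by
        show d' u ∈ (V : Subgroup S).map (d' : S ≃* S).toMonoidHom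
        exact ⟨u, hu, rfl⟩
      rw [hW, hd', conj_apply_eq] at h1
      exact h1
    · intro u hu
      rw [← hW] at hu
      obtain ⟨u', hu', h⟩ := (show u ∈ (V : Subgroup S).map (d' : S ≃* S).toMonoidHom from hu)
      refine ⟨u', hu', ?_⟩
      rw [← conj_apply_eq]
      exact h
  set K : Subgroup S := (Subgroup.normalizer (U : Set S)).normalCore with hK
  have hmem : ∀ s : S, s⁻¹ * d s ∈ K := by
    intro s t
    refine Subgroup.mem_normalizer_fintype fun u hu => ?_
    obtain ⟨u', hu', h1⟩ := (hinv t).2 u hu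
    have h2 := (hinv (t * s⁻¹)).1 u' hu'
    have e : t * (s⁻¹ * d s) * t⁻¹ * u * (t * (s⁻¹ * d s) * t⁻¹)⁻¹
        = t * s⁻¹ * d ((t * s⁻¹)⁻¹ * u' * (t * s⁻¹)) * (t * s⁻¹)⁻¹ := by
      rw [← h1]
      have e2 : (t * s⁻¹)⁻¹ * u' * (t * s⁻¹) = s * (t⁻¹ * u' * t) * s⁻¹ := by group
      rw [e2, map_mul d (s * _) s⁻¹, map_mul d s, map_inv d s]
      group
    rw [e]
    exact h2
  have hKn : K.Normal := Subgroup.normalCore_normal _
  rcases hS.eq_bot_or_eq_top_of_normal K hKn with h | h
  · have hd1 : d = 1 := by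
      ext s
      have h1 := hmem s
      rw [h, Subgroup.mem_bot] at h1
      rw [MulAut.one_apply]
      calc d s = s * (s⁻¹ * d s) := by group
        _ = s := by rw [h1, mul_one]
    rw [hd1, orderOf_one] at hd
    exact hp.out.one_lt.ne hd
  · have hn : Subgroup.normalizer (U : Set S) = ⊤ := by
      rw [eq_top_iff, ← h]
      exact Subgroup.normalCore_le _
    have hUn : (U : Subgroup S).Normal := Subgroup.normalizer_eq_top_iff.1 hn
    rcases hS.eq_bot_or_eq_top_of_normal _ hUn with h1 | h1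
    · apply hx1
      have h2 : x ∈ (U : Subgroup S) := hxU
      rwa [h1, Subgroup.mem_bot] at h2
    · have h2 : IsPGroup p (⊤ : Subgroup S) := by rw [← h1]; exact U.isPGroup'
      have h3 : IsPGroup p S := h2.of_equiv Subgroup.topEquiv
      have : Nontrivial S := hS.toNontrivial
      have h4 : Nontrivial (Subgroup.center S) := h3.center_nontrivial
      rw [hc] at h4
      exact (not_subsingleton_iff_nontrivial.mpr h4) inferInstance

end Cfsg.Agent.H322.Wf
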